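import Groth.Agent.Pi1C.IdemCrit
import Groth.Agent.CurvesC.PointScheme
import Groth.Agent.VarietyA.GlobalSections
import Mathlib.AlgebraicGeometry.Morphisms.FlatMono
import Mathlib.AlgebraicGeometry.Morphisms.UniversallyOpen

/-!
# Full restriction functors preserve connectedness
-/

set_option autoImplicit false
universe u
open CategoryTheory CategoryTheory.Limits AlgebraicGeometry TopologicalSpace

namespace Groth.Agent.Pi1.H386.FullConn

/-- A finite étale morphism from a nonempty scheme to a connected scheme is surjective. -/
theorem surjective_of_finite_etale {T X : Scheme.{u}} (f : T ⟶ X) [IsFinite f] [Etale f]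
    [ConnectedSpace X] [Nonempty T] : Function.Surjective f := by
  have h1 : IsClopen (Set.range f) := ⟨f.isClosedMap.isClosed_range, f.isOpenMap.isOpen_range⟩
  rcases isClopen_iff.mp h1 with h | h
  · exact absurd h (Set.range_nonempty f).ne_empty
  · exact Set.range_eq_univ.mp h

theorem surjective_hom {X : Scheme.{u}} (T : FEt.Cat X) [ConnectedSpace X] [Nonempty T.left] :
    Surjective T.hom := by
  have hT1 : IsFinite T.hom := T.prop.1
  have hT2 : Etale T.hom := T.prop.2
  exact ⟨@surjective_of_finite_etale T.left X T.hom hT1 hT2 _ _⟩

/-- If `FEt.restrict f` is full, connected finite étale covers restrict to connected covers. -/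
theorem connectedSpace_of_full {X Y : Scheme.{u}} (f : Y ⟶ X) [(FEt.restrict f).Full] [ConnectedSpace X]
    [Nonempty Y] (T : FEt.Cat X) [ConnectedSpace T.left] :
    ConnectedSpace ((FEt.restrict f).obj T).left := by
  have hS : Surjective T.hom := surjective_hom T
  change ConnectedSpace ↥(pullback T.hom f)
  have hne : Nonempty ↥(pullback T.hom f) := by
    obtain ⟨y⟩ := ‹Nonempty Y›
    obtain ⟨p, -⟩ := (pullback.snd T.hom f).surjective y
    exact ⟨p⟩
  apply Groth.Agent.CurvesC.PointScheme.connectedSpace_of_idem
  intro e he
  obtain ⟨e', he', rfl⟩ := Groth.Agent.Pi1C.IdemCrit.exists_idem_of_full f T e he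
  rcases VarietyA.GlobalSections.idem_of_connected T.left e' he' with rfl | rfl
  · left; exact map_zero _
  · right; exact map_one _

end Groth.Agent.Pi1.H386.FullConn
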