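import Groth.Agent.Pi1A.FEtAffine
import Groth.Agent.Pi1A.NormalEtale

/-!
# Global functions of a finite étale cover of an affine scheme

* `Glob A Z`: the finite étale `A`-algebra of global functions of a finite étale cover `Z` of `Spec A`;
* `Glob.map`: functoriality;
* `Glob.fib`: the fibre at `Spec.map v` is the set of ring homomorphisms extending `v`.
-/

set_option autoImplicit false

universe u

open CategoryTheory CategoryTheory.Limits AlgebraicGeometry
open Groth.Agent.Pi1A.FEtAffine

namespace Groth.Agent.Pi1.H386.Glob

variable (A : Type u) [CommRing A]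

/-- Global functions of a cover. -/
def Glob (Z : FEt.Cat (Spec (CommRingCat.of A))) : Type u := Γ(Z.left, ⊤)

variable {A} (Z : FEt.Cat (Spec (CommRingCat.of A)))

noncomputable instance : CommRing (Glob A Z) := inferInstanceAs (CommRing Γ(Z.left, ⊤))

/-- The structure map, as a morphism. -/
noncomputable def str : CommRingCat.of A ⟶ Γ(Z.left, ⊤) :=
  haveI := isAffine_left Z
  Spec.preimage (Z.left.isoSpec.inv ≫ Z.hom)

lemma specMap_str : Spec.map (str Z) = haveI := isAffine_left Z
    Z.left.isoSpec.inv ≫ Z.hom := Spec.map_preimage _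

noncomputable instance : Algebra A (Glob A Z) := (str Z).hom.toAlgebra

lemma algebraMap_eq : algebraMap A (Glob A Z) = (str Z).hom := rfl

lemma prop_str : FEt.prop (Spec.map (str Z)) := by
  have := isAffine_left Z
  rw [specMap_str]
  exact (MorphismProperty.cancel_left_of_respectsIso FEt.prop _ _).mpr Z.prop

instance : Module.Finite A (Glob A Z) := (IsFinite.SpecMap_iff (str Z)).mp (prop_str Z).1

instance : Algebra.Etale A (Glob A Z) :=
  (HasRingHomProperty.Spec_iff (P := @Etale)).mp (prop_str Z).2

variable {Z} in
/-- Functoriality. -/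
noncomputable def map {Z' : FEt.Cat (Spec (CommRingCat.of A))} (f : Z ⟶ Z') :
    Glob A Z' →ₐ[A] Glob A Z :=
  { f.left.appTop.hom with
    commutes' := fun r => by
      have h1 := isAffine_left Z
      have h2 := isAffine_left Z'
      have h : str Z' ≫ f.left.appTop = str Z := by
        apply Spec.map_injective
        rw [Spec.map_comp, specMap_str, specMap_str, ← hom_w f]
        have := Scheme.isoSpec_inv_naturality f.left
        rw [← Category.assoc, this, Category.assoc]
      exact congr($(h).hom r) }

section fib

variable {K : Type u} [Field K] (v : CommRingCat.of A ⟶ CommRingCat.of K)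

/-- The fibre at `Spec.map v` consists of the ring homomorphisms extending `v`. -/
noncomputable def fib : FEt.fiberObj (Spec.map v) Z ≃
    {φ : Glob A Z →+* K // φ.comp (algebraMap A (Glob A Z)) = v.hom} where
  toFun s :=
    haveI := isAffine_left Z
    ⟨(Spec.preimage (s.1 ≫ Z.left.isoSpec.hom)).hom, by
      have h : str Z ≫ Spec.preimage (s.1 ≫ Z.left.isoSpec.hom) = v := by
        apply Spec.map_injective
        rw [Spec.map_comp, specMap_str, Spec.map_preimage, Category.assoc, Iso.hom_inv_id_assoc]
        exact s.2
      exact congr($(h).hom)⟩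
  invFun φ :=
    haveI := isAffine_left Z
    ⟨Spec.map (CommRingCat.ofHom (R := Γ(Z.left, ⊤)) φ.1) ≫ Z.left.isoSpec.inv, by
      rw [Category.assoc, ← specMap_str, ← Spec.map_comp]
      congr 1
      ext1
      exact φ.2⟩
  left_inv s := by
    have := isAffine_left Z
    apply Subtype.ext
    change Spec.map (CommRingCat.ofHom (Spec.preimage (s.1 ≫ Z.left.isoSpec.hom)).hom) ≫
      Z.left.isoSpec.inv = s.1
    rw [CommRingCat.ofHom_hom, Spec.map_preimage, Category.assoc, Iso.hom_inv_id, Category.comp_id]
  right_inv φ := by
    have := isAffine_left Z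
    apply Subtype.ext
    change (Spec.preimage ((Spec.map (CommRingCat.ofHom (R := Γ(Z.left, ⊤)) φ.1) ≫
      Z.left.isoSpec.inv) ≫ Z.left.isoSpec.hom)).hom = φ.1
    rw [Category.assoc, Iso.inv_hom_id, Category.comp_id, Spec.preimage_map]
    rfl

variable {Z} in
lemma fib_map {Z' : FEt.Cat (Spec (CommRingCat.of A))} (f : Z ⟶ Z')
    (s : FEt.fiberObj (Spec.map v) Z) :
    (fib Z' v ((FEt.fiber (Spec.map v)).map f s)).1 = (fib Z v s).1.comp (map f).toRingHom := by
  have h1 := isAffine_left Z
  have h2 := isAffine_left Z'
  change (Spec.preimage ((s.1 ≫ f.left) ≫ Z'.left.isoSpec.hom)).hom =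
    (Spec.preimage (s.1 ≫ Z.left.isoSpec.hom)).hom.comp f.left.appTop.hom
  have h : Spec.preimage ((s.1 ≫ f.left) ≫ Z'.left.isoSpec.hom) =
      f.left.appTop ≫ Spec.preimage (s.1 ≫ Z.left.isoSpec.hom) := by
    apply Spec.map_injective
    rw [Spec.map_comp, Spec.map_preimage, Spec.map_preimage]
    have := Scheme.isoSpec_hom_naturality f.left
    rw [Category.assoc, ← this, Category.assoc]
  exact congr($(h).hom)

end fib

/-- Functions of connected covers of the spectrum of a normal domain form a domain. -/
theorem isDomain [IsDomain A] [IsIntegrallyClosed A] [ConnectedSpace Z.left] :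
    IsDomain (Glob A Z) := by
  have hA : Pi1.IsNormalScheme (Spec (CommRingCat.of A)) := by
    intro x
    have hp : x.asIdeal.IsPrime := x.2
    let _ : Algebra A ((Spec (CommRingCat.of A)).presheaf.stalk x) :=
      StructureSheaf.stalkAlgebra A x
    have h : IsLocalization.AtPrime ((Spec (CommRingCat.of A)).presheaf.stalk x) x.asIdeal :=
      StructureSheaf.IsLocalization.to_stalk A x
    exact ⟨IsLocalization.isDomain_of_atPrime _ x.asIdeal,
      isIntegrallyClosed_of_isLocalization (R := A) (S := (Spec (CommRingCat.of A)).presheaf.stalk x)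
      x.asIdeal.primeCompl (Ideal.primeCompl_le_nonZeroDivisors _)⟩
  have h1 : Etale Z.hom := Z.prop.2
  have h2 : IsIntegral (Spec (CommRingCat.of A)) := inferInstance
  have h3 : IsIntegral Z.left :=
    Groth.Agent.Pi1A.NormalEtale.isIntegral_of_connectedSpace (X := Spec (CommRingCat.of A)) hA Z.hom
  exact (inferInstance : IsDomain Γ(Z.left, ⊤))

end Groth.Agent.Pi1.H386.Glob
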