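import Groth.Agent.Pi1C.LefFinal
import Groth.Agent.Pi1C.LefClopenMain
import Groth.Agent.VarietyB.DimSch
import Groth.Agent.Flat2B.DimFibre
import Groth.Agent.CalgA.SerreLocal
import Groth.Agent.Ega4B.HullS2
import Groth.Agent.Divis.NormAmple
import Groth.Agent.Ega1.ReducedSub
import Groth.Agent.Pi1.H386.FullConn
import Groth.Agent.Pi1A.FEtAffine

/-!
# Hyperplane sections of normal projective varieties of dimension at least two
-/

set_option autoImplicit false
universe u
open CategoryTheory CategoryTheory.Limits AlgebraicGeometry TopologicalSpace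

namespace Groth.Agent.Pi1.H386.LefStep

open Groth.Agent.Pi1C.LefReduce

variable (k : Type u) [Field k] {X : Scheme.{u}}

theorem one_le_dim_closure {x : X} (hx : ¬ IsClosed ({x} : Set X)) :
    (1 : WithBot ℕ∞) ≤ topologicalKrullDim (closure ({x} : Set X)) := by
  obtain ⟨y, hy, hyx⟩ : ∃ y ∈ closure ({x} : Set X), y ≠ x := by
    by_contra! h
    apply hx
    rw [← closure_subset_iff_isClosed]
    intro y hy
    exact h y hy
  by_contra hcon
  rw [not_le] at hcon
  have hle : topologicalKrullDim (closure ({x} : Set X)) ≤ ((0 : ℕ) : WithBot ℕ∞) := by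
    rw [← ENat.WithBot.lt_add_one_iff]
    simpa using hcon
  have hT : IsClosed (closure ({x} : Set X)) := isClosed_closure
  have hemb : Topology.IsClosedEmbedding (Subtype.val : closure ({x} : Set X) → X) :=
    hT.isClosedEmbedding_subtypeVal
  have hsob : QuasiSober (closure ({x} : Set X)) := hemb.quasiSober
  have hT0 : T0Space (closure ({x} : Set X)) := hemb.isEmbedding.t0Space
  have hsub : closure ({y} : Set X) ⊆ closure ({x} : Set X) :=
    closure_minimal (Set.singleton_subset_iff.mpr hy) isClosed_closure
  have h1 := Flat2B.DimFibre.topologicalKrullDim_lt 0 hle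
    (Set.inclusion hsub : closure ({y} : Set X) → closure ({x} : Set X))
    (Topology.IsClosedEmbedding.inclusion hsub (isClosed_closure.preimage continuous_subtype_val))
    ⟨x, subset_closure rfl⟩ ?_ ?_
  · exact absurd h1 (not_lt.mpr (topologicalKrullDim_closure_nonneg y))
  · rintro ⟨z, hz⟩
    rw [← hemb.isInducing.specializes_iff]
    exact specializes_iff_mem_closure.mpr (hsub hz)
  · rintro ⟨z, hz⟩ h
    have hzx : z = x := congrArg Subtype.val h
    subst hzx
    apply hyx
    have h2 : y ⤳ z := specializes_iff_mem_closure.mpr hz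
    have h3 : z ⤳ y := specializes_iff_mem_closure.mpr hy
    exact (h2.antisymm h3).eq

theorem eq_genericPoint_of_isField [IsIntegral X] (x : X) (h : IsField (X.presheaf.stalk x)) :
    x = genericPoint X := by
  have h1 : genericPoint X ∈ Set.range (X.fromSpecStalk x) := by
    rw [Scheme.range_fromSpecStalk]
    exact genericPoint_specializes x
  obtain ⟨p, hp⟩ := h1
  have h2 : p = IsLocalRing.closedPoint (X.presheaf.stalk x) := by
    apply PrimeSpectrum.ext
    have h4 : (IsLocalRing.closedPoint (X.presheaf.stalk x)).asIdeal = ⊥ :=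
      (IsLocalRing.isField_iff_maximalIdeal_eq).mp h
    rw [h4]
    by_contra h5
    obtain ⟨a, ha, ha0⟩ := Submodule.exists_mem_ne_zero_of_ne_bot h5
    obtain ⟨b, hb⟩ := h.mul_inv_cancel ha0
    apply p.2.ne_top
    rw [Ideal.eq_top_iff_one, ← hb]
    exact Ideal.mul_mem_right _ _ ha
  rw [h2, Scheme.fromSpecStalk_closedPoint] at hp
  exact hp

theorem depthHyp (pX : X ⟶ Spec (CommRingCat.of k)) [LocallyOfFiniteType pX] [IsIntegral X]
    (hX : Pi1.IsNormalScheme X) (hdim : 2 ≤ topologicalKrullDim X) (W : Set X) :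
    DepthHyp 1 X W := by
  let _ : X.Over (Spec (CommRingCat.of k)) := ⟨pX⟩
  have : LocallyOfFiniteType (X ↘ Spec (CommRingCat.of k)) := inferInstanceAs (LocallyOfFiniteType pX)
  have hN : IsLocallyNoetherian X := LocallyOfFiniteType.isLocallyNoetherian pX
  intro x _
  have hdom : IsDomain (X.presheaf.stalk x) := (hX x).1
  have hint : IsIntegrallyClosed (X.presheaf.stalk x) := (hX x).2
  have hloc := VarietyB.DimSch.localDim_eq k x
  rw [VarietyB.DimSch.localDim_eq_of_irreducible k x, ← VarietyB.DimSch.topologicalKrullDim_eq_trd k] at hloc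
  have h12 : ((1 : ℕ) : WithBot ℕ∞) < 2 := by norm_num
  have h0 := topologicalKrullDim_closure_nonneg x
  by_cases hcl : IsClosed ({x} : Set X)
  · rw [VarietyB.DimSch.trd_eq_zero_of_isClosed k hcl, Nat.cast_zero, add_zero] at hloc
    have h2 : ¬ ringKrullDim (X.presheaf.stalk x) ≤ 1 := by
      rw [← hloc, not_le]
      exact lt_of_lt_of_le h12 hdim
    have h3 := CalgA.SerreLocal.two_le_depth_of_isIntegrallyClosed h2
    refine lt_of_lt_of_le h12 ?_
    have h4 : (2 : WithBot ℕ∞) ≤ (LocCoh.depth (X.presheaf.stalk x) (X.presheaf.stalk x) : WithBot ℕ∞) :=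
      WithBot.coe_le_coe.mpr h3
    exact h4.trans (le_add_of_nonneg_right h0)
  · by_cases hf : IsField (X.presheaf.stalk x)
    · have hx := eq_genericPoint_of_isField x hf
      have h4 : topologicalKrullDim (closure ({x} : Set X)) = topologicalKrullDim X := by
        rw [hx, genericPoint_closure]
        exact IsHomeomorph.topologicalKrullDim_eq _ (Homeomorph.Set.univ X).isHomeomorph
      rw [h4]
      refine lt_of_lt_of_le h12 (hdim.trans (le_add_of_nonneg_left ?_))
      exact WithBot.coe_nonneg.mpr (zero_le)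
    · have h5 : ∃ a : X.presheaf.stalk x, a ∈ IsLocalRing.maximalIdeal _ ∧ a ≠ 0 := by
        rw [IsLocalRing.isField_iff_maximalIdeal_eq] at hf
        obtain ⟨a, ha, ha0⟩ := Submodule.exists_mem_ne_zero_of_ne_bot hf
        exact ⟨a, ha, ha0⟩
      obtain ⟨a, ha, ha0⟩ := h5
      have h6 := Ega4B.HullS2.one_le_depth (X.presheaf.stalk x) a ha ha0
      refine lt_of_lt_of_le h12 ?_
      have h7 : (1 : WithBot ℕ∞) ≤ (LocCoh.depth (X.presheaf.stalk x) (X.presheaf.stalk x) : WithBot ℕ∞) := by
        exact_mod_cast h6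
      have h8 := add_le_add h7 (one_le_dim_closure hcl)
      refine le_trans (le_of_eq ?_) h8
      norm_num

/-- **Hyperplane sections**: for `X` proper, normal, integral of dimension at least two over a field, with an ample
module, there is a connected reduced closed subscheme `Y` of smaller dimension such that restriction of finite étale
covers from `X` to `Y` is fully faithful. -/
theorem exists_section (pX : X ⟶ Spec (CommRingCat.of k)) [IsProper pX] [IsIntegral X]
    (hX : Pi1.IsNormalScheme X) (hdim : 2 ≤ topologicalKrullDim X) {A : X.Modules} (hA : CohB1.IsAmple A)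
    (n : ℕ) (hn : topologicalKrullDim X ≤ (n : WithBot ℕ∞)) :
    ∃ (Y : Scheme.{u}) (i : Y ⟶ X) (_ : IsClosedImmersion i), ConnectedSpace Y ∧ IsReduced Y ∧
      topologicalKrullDim Y < (n : WithBot ℕ∞) ∧ (FEt.restrict i).Full ∧ (FEt.restrict i).Faithful ∧
      (∀ Z : FEt.Cat X, ConnectedSpace Z.left → ConnectedSpace ((FEt.restrict i).obj Z).left) := by
  obtain ⟨m, s, hgen, haff⟩ := hA.2.2 (genericPoint X)
  have hL : CohB1.IsAmple (CohB1.tensorPow A (m + 1)) := Divis.NormAmple.isAmple_tensorPow hA (Nat.succ_pos m)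
  generalize CohB1.tensorPow A (m + 1) = L at s hgen haff hL
  have hd := depthHyp k pX hX hdim (CohB1.genLocus L s)
  obtain ⟨hC1, hC2⟩ := Groth.Agent.Pi1C.LefFinal.lefClopen Groth.Agent.Pi1C.LefClopenMain.lefClopen k X pX L hL s hd
  let C : Closeds X := ⟨(CohB1.genLocus L s : Set X)ᶜ, (CohB1.genLocus L s).isOpen.isClosed_compl⟩
  let I := Scheme.IdealSheafData.vanishingIdeal C
  have hred : IsReduced I.subscheme := Ega1.ReducedSub.isReduced_subscheme_vanishingIdeal C
  have hrange : Set.range I.subschemeι = (CohB1.genLocus L s : Set X)ᶜ := by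
    rw [Scheme.IdealSheafData.range_subschemeι, Scheme.IdealSheafData.coe_support_vanishingIdeal]
    rfl
  have hff := restrict_fullyFaithful
    (Groth.Agent.Pi1C.LefFinal.lefClopen Groth.Agent.Pi1C.LefClopenMain.lefClopen) pX L hL s hd haff
    I.subschemeι hrange ⊤ (Set.subset_univ _)
  have hiso0 : IsIso (⊤ : X.Opens).ι := (Scheme.topIso X).isIso_hom
  have hiso : IsIso (pullback.fst I.subschemeι (⊤ : X.Opens).ι) := inferInstance
  have hw : (asIso (pullback.fst I.subschemeι (⊤ : X.Opens).ι)).symm.hom ≫
      pullback.snd I.subschemeι (⊤ : X.Opens).ι = I.subschemeι ≫ (Scheme.topIso X).symm.hom := by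
    rw [Iso.symm_hom, asIso_inv, IsIso.inv_comp_eq, Iso.symm_hom, ← Category.assoc, Iso.eq_comp_inv]
    exact pullback.condition.symm
  have hfull : (FEt.restrict I.subschemeι).Full := by
    have := hff.1
    exact Pi1A.FEtAffine.restrict_full_of_arrowIso _ _ hw
  have hfaith : (FEt.restrict I.subschemeι).Faithful := by
    have := hff.2
    exact Pi1A.FEtAffine.restrict_faithful_of_arrowIso _ _ hw
  have hne : Nonempty I.subscheme := by
    by_contra hcon
    rw [not_nonempty_iff] at hcon
    have h1 : (CohB1.genLocus L s : Set X)ᶜ = ∅ := by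
      rw [← hrange]
      exact Set.range_eq_empty _
    have h2 := hC1 Set.univ isClopen_univ (by rw [h1, Set.inter_empty])
    exact Set.univ_nonempty.ne_empty h2
  have hconn : ConnectedSpace I.subscheme := by
    have hpre : PreconnectedSpace I.subscheme := by
      rw [preconnectedSpace_iff_clopen]
      intro S hS
      have hcl := I.subschemeι.isClosedEmbedding
      obtain ⟨Z, hZ, hZS⟩ := hC2 (I.subschemeι '' S) (I.subschemeι '' Sᶜ) (hcl.isClosedMap _ hS.isClosed)
        (hcl.isClosedMap _ hS.compl.isClosed)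
        (by rw [← Set.image_union, Set.union_compl_self, Set.image_univ, hrange])
        (by rw [← Set.image_inter hcl.injective, Set.inter_compl_self, Set.image_empty])
      rcases isClopen_iff.mp hZ with rfl | rfl
      · left
        rw [Set.empty_inter] at hZS
        exact Set.image_eq_empty.mp hZS.symm
      · right
        rw [Set.univ_inter, ← hrange, ← Set.image_univ] at hZS
        exact (Set.image_injective.mpr hcl.injective hZS).symm
    exact { toPreconnectedSpace := hpre, toNonempty := hne }
  refine ⟨I.subscheme, I.subschemeι, inferInstance, hconn, hred, ?_, hfull, hfaith, fun Z hZ =>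
    FullConn.connectedSpace_of_full I.subschemeι Z⟩
  refine Flat2B.DimFibre.topologicalKrullDim_lt n hn I.subschemeι I.subschemeι.isClosedEmbedding
    (genericPoint X) (fun y => genericPoint_specializes _) (fun y hy => ?_)
  have h1 : genericPoint X ∈ Set.range I.subschemeι := ⟨y, hy⟩
  rw [hrange] at h1
  exact h1 hgen

end Groth.Agent.Pi1.H386.LefStep
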