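import Groth.Agent.Pi1.H147.TwoChart
import Groth.Agent.Pi1.H147.Slit
import Mathlib.GroupTheory.FreeGroup.Basic

/-!
# The action of a free group on the fibre of a covering of the plane minus finitely many points
-/

set_option autoImplicit false

open Topology Set
open Groth.Agent.Pi1.H147.Sec Groth.Agent.Pi1.H147.Slit Groth.Agent.Pi1.H147.TwoChart

namespace Groth.Agent.Pi1.H386.LineTop

variable {n : ℕ} (b : Fin n → ℂ) (hb : StrictMono fun i => (b i).re)

/-- A point of the `j`-th strip. -/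
noncomputable def w (j : Fin (n + 1)) : ℂ := (strip_nonempty b hb j).choose

theorem w_mem (j : Fin (n + 1)) : w b hb j ∈ Strip b j := (strip_nonempty b hb j).choose_spec

theorem w_mem_half (s : ℝ) (j : Fin (n + 1)) : w b hb j ∈ Half b s :=
  strip_subset_half b s j (w_mem b hb j)

theorem w_mem_pl (j : Fin (n + 1)) : w b hb j ∈ Pl b :=
  half_subset_pl b 1 (w_mem_half b hb 1 j)

theorem good₁ : Good (Half b 1) := good_half b 1 (by norm_num)

theorem good₂ : Good (Half b (-1)) := good_half b (-1) (by norm_num)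

section perm

variable {E E' : Type*} [TopologicalSpace E] [TopologicalSpace E'] {p : E → ℂ} {p' : E' → ℂ}
  (hp : IsCoveringMapOn p (Pl b)) (hp' : IsCoveringMapOn p' (Pl b))

/-- The generator attached to the `j`-th strip. -/
noncomputable def tau (j : Fin (n + 1)) : Equiv.Perm (p ⁻¹' {w b hb 0}) :=
  g hp (good₁ b) (good₂ b) (half_subset_pl b 1) (half_subset_pl b (-1)) (w_mem_half b hb 1 0)
    (w_mem_half b hb (-1) 0) (w_mem_half b hb 1 j) (w_mem_half b hb (-1) j)

/-- The action of the free group. -/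
noncomputable def act : FreeGroup (Fin (n + 1)) →* Equiv.Perm (p ⁻¹' {w b hb 0}) :=
  FreeGroup.lift (tau b hb hp)

theorem tau_natural (φ : E → E') (hφ : Continuous φ) (hφp : ∀ e, p' (φ e) = p e)
    (j : Fin (n + 1)) (e : p ⁻¹' {w b hb 0}) (e' : p' ⁻¹' {w b hb 0}) (he : φ e.1 = e'.1) :
    φ (tau b hb hp j e).1 = (tau b hb hp' j e').1 :=
  map_g hp _ _ _ _ _ _ hp' φ hφ.continuousOn (fun e _ => hφp e) _ _ e e' he

theorem act_natural (φ : E → E') (hφ : Continuous φ) (hφp : ∀ e, p' (φ e) = p e)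
    (γ : FreeGroup (Fin (n + 1))) : ∀ (e : p ⁻¹' {w b hb 0}) (e' : p' ⁻¹' {w b hb 0})
    (_ : φ e.1 = e'.1), φ (act b hb hp γ e).1 = (act b hb hp' γ e').1 := by
  induction γ using FreeGroup.induction_on with
  | C1 => intro e e' he; simpa using he
  | of j =>
    intro e e' he
    simp only [act, FreeGroup.lift_apply_of]
    exact tau_natural b hb hp hp' φ hφ hφp j e e' he
  | inv_of j ih =>
    intro e e' he
    simp only [act, map_inv, FreeGroup.lift_apply_of]
    -- `φ (τ⁻¹ e) = τ'⁻¹ e'`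
    have hmem : p' (φ ((tau b hb hp j)⁻¹ e).1) = w b hb 0 := by
      rw [hφp]
      exact ((tau b hb hp j)⁻¹ e).2
    have h1 := tau_natural b hb hp hp' φ hφ hφp j ((tau b hb hp j)⁻¹ e) ⟨_, hmem⟩ rfl
    rw [perm_apply_inv, he] at h1
    have h2 : e' = tau b hb hp' j ⟨_, hmem⟩ := Subtype.ext h1
    rw [h2, perm_inv_apply]
  | mul x y hx hy =>
    intro e e' he
    rw [map_mul, map_mul, Equiv.Perm.mul_apply, Equiv.Perm.mul_apply]
    exact hx _ _ (hy _ _ he)

include hb in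
/-- Transitivity for connected covers. -/
theorem exists_act [PreconnectedSpace E] (hE : ∀ e, p e ∈ Pl b) (x y : p ⁻¹' {w b hb 0}) :
    ∃ γ, act b hb hp γ x = y := by
  classical
  let hz₁ := w_mem_half b hb 1 0
  let hz₂ := w_mem_half b hb (-1) 0
  let L : Fin (n + 1) → Set ℂ := Strip b
  let hL₁ : ∀ j, L j ⊆ Half b 1 := strip_subset_half b 1
  let hL₂ : ∀ j, L j ⊆ Half b (-1) := strip_subset_half b (-1)
  let C := comp hp (good₁ b) (good₂ b) (half_subset_pl b 1) (half_subset_pl b (-1)) hz₁ hz₂ L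
    (w b hb) (w_mem b hb) hL₁ hL₂ 0 (Half b 1) (Half b (-1))
  have hC1 : ∀ o, IsOpen (C o) := fun o => isOpen_comp hp (good₁ b) (good₂ b) _ _ hz₁ hz₂ L
    (w b hb) (w_mem b hb) hL₁ hL₂ 0 (isOpen_half b 1) (isOpen_half b (-1)) (isOpen_half b 1)
    (isOpen_half b (-1)) o
  have hC2 : ⋃ o, C o = univ := by
    have := iUnion_comp hp (good₁ b) (good₂ b) (half_subset_pl b 1) (half_subset_pl b (-1)) hz₁ hz₂ L
      (w b hb) (w_mem b hb) hL₁ hL₂ 0 (D₁ := Half b 1) (D₂ := Half b (-1)) subset_rfl subset_rfl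
    refine this.trans ?_
    rw [half_union_half b hb]
    exact eq_univ_of_forall hE
  have hC3 : ∀ {o o'} {x : E}, x ∈ C o → x ∈ C o' → o = o' := fun hx hx' =>
    comp_disjoint hp (good₁ b) (good₂ b) _ _ hz₁ hz₂ L
    (w b hb) (w_mem b hb) (isPreconnected_strip b) hL₁ hL₂ 0 (half_inter_half b hb) hx hx'
  have hC4 : ∀ o, (C o).Nonempty := fun o => nonempty_comp hp (good₁ b) (good₂ b) _ _ hz₁ hz₂ L
    (w b hb) (w_mem b hb) hL₁ hL₂ 0 subset_rfl ⟨_, hz₁⟩ o
  -- all orbits are equal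
  have hC5 : ∀ o o' : MulAction.orbitRel.Quotient (grp hp (good₁ b) (good₂ b) (half_subset_pl b 1)
      (half_subset_pl b (-1)) hz₁ hz₂ L (w b hb) (w_mem b hb) hL₁ hL₂ 0) (p ⁻¹' {w b hb 0}),
      o = o' := by
    intro o o'
    have hcl : IsClopen (C o) := by
      refine ⟨⟨?_⟩, hC1 o⟩
      have : (C o)ᶜ = ⋃ o'' : {o'' // o'' ≠ o}, C o''.1 := by
        ext z
        constructor
        · intro hz
          obtain ⟨o'', ho''⟩ := mem_iUnion.1 (hC2 ▸ mem_univ z : z ∈ ⋃ o, C o)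
          exact mem_iUnion.2 ⟨⟨o'', fun h => hz (h ▸ ho'')⟩, ho''⟩
        · intro hz hz'
          obtain ⟨o'', ho''⟩ := mem_iUnion.1 hz
          exact o''.2 (hC3 ho'' hz')
      rw [this]
      exact isOpen_iUnion fun o'' => hC1 _
    have h1 : C o = univ := hcl.eq_univ (hC4 o)
    obtain ⟨z, hz⟩ := hC4 o'
    exact hC3 (h1 ▸ mem_univ z : z ∈ C o) hz
  have h2 := hC5 (Quotient.mk'' y) (Quotient.mk'' x)
  have h3 := Quotient.exact' h2
  obtain ⟨⟨σ, hσ⟩, hσ2⟩ := h3
  have h4 : σ x = y := hσ2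
  -- `σ` lies in the range of `act`
  have h5 : σ ∈ (act b hb hp).range := by
    refine (Subgroup.closure_le _).2 ?_ hσ
    rintro _ ⟨j, rfl⟩
    refine ⟨(FreeGroup.of 0)⁻¹ * FreeGroup.of j, ?_⟩
    rw [map_mul, map_inv]
    simp only [act, FreeGroup.lift_apply_of]
    rfl
  obtain ⟨γ, rfl⟩ := h5
  exact ⟨γ, h4⟩

end perm

end Groth.Agent.Pi1.H386.LineTop
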