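import Groth.Agent.CalgA.SerreLocal
import Groth.Agent.Ega2.SmoothBdry
import Groth.Agent.VarietyB.DimSch

/-!
# Normal curves over perfect fields are smooth
-/

set_option autoImplicit false
universe u
open CategoryTheory CategoryTheory.Limits AlgebraicGeometry TopologicalSpace

namespace Groth.Agent.Pi1.H386.NormalCurve

theorem smooth_of_normal (k : Type u) [Field k] [PerfectField k] {X : Scheme.{u}}
    (pX : X ⟶ Spec (CommRingCat.of k)) [LocallyOfFiniteType pX] [IsIntegral X]
    (hX : Pi1.IsNormalScheme X) (hdim : topologicalKrullDim X ≤ 1) : Smooth pX := by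
  let _ : X.Over (Spec (CommRingCat.of k)) := ⟨pX⟩
  have : LocallyOfFiniteType (X ↘ Spec (CommRingCat.of k)) := inferInstanceAs (LocallyOfFiniteType pX)
  have hN : IsLocallyNoetherian X := LocallyOfFiniteType.isLocallyNoetherian pX
  refine Ega2.SmoothBdry.smooth_of_regular pX fun x => ?_
  have hdom : IsDomain (X.presheaf.stalk x) := (hX x).1
  have hint : IsIntegrallyClosed (X.presheaf.stalk x) := (hX x).2
  have hloc := VarietyB.DimSch.localDim_eq k x
  rw [VarietyB.DimSch.localDim_eq_of_irreducible k x, ← VarietyB.DimSch.topologicalKrullDim_eq_trd k] at hloc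
  have h1 : ringKrullDim (X.presheaf.stalk x) ≤ 1 := by
    refine le_trans ?_ hdim
    rw [hloc]
    refine le_add_of_nonneg_right ?_
    exact_mod_cast Nat.zero_le _
  exact CalgA.SerreLocal.isRegularLocalRing_of_isIntegrallyClosed h1

end Groth.Agent.Pi1.H386.NormalCurve
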