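import Mathlib.RingTheory.WittVector.Complete
import Mathlib.RingTheory.WittVector.DiscreteValuationRing
import Mathlib.RingTheory.Henselian
import Mathlib.RingTheory.LocalRing.ResidueField.Defs
import Mathlib.FieldTheory.IsAlgClosed.Basic
import Mathlib.FieldTheory.Perfect

/-!
# Witt vectors of a perfect field as a base
-/

set_option autoImplicit false
universe u

namespace Groth.Agent.Pi1.H386.WittBase

theorem henselianLocalRing_of_complete (A : Type u) [CommRing A] [IsLocalRing A]
    [IsAdicComplete (IsLocalRing.maximalIdeal A) A] : HenselianLocalRing A where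
  is_henselian f hf a₀ h₁ h₂ :=
    HenselianRing.is_henselian (I := IsLocalRing.maximalIdeal A) f hf a₀ h₁ (h₂.map _)

theorem charZero_witt (p : ℕ) [hp : Fact p.Prime] (k : Type u) [Field k] [CharP k p] [PerfectRing k p] :
    CharZero (WittVector p k) := by
  have hirr : Irreducible (p : WittVector p k) := WittVector.irreducible p
  obtain ⟨q, hq⟩ := CharP.exists (WittVector p k)
  have hq0 : q = 0 := by
    have h1 : (q : WittVector p k) = 0 := CharP.cast_eq_zero _ q
    have h2 : (q : k) = 0 := by
      have := congrArg (WittVector.constantCoeff (R := k) (p := p)) h1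
      rwa [map_natCast, map_zero] at this
    have h3 : p ∣ q := (CharP.cast_eq_zero_iff k p q).mp h2
    rcases CharP.char_is_prime_or_zero (WittVector p k) q with h | h
    · exfalso
      have h4 : p = q := (Nat.prime_dvd_prime_iff_eq hp.out h).mp h3
      subst h4
      exact hirr.ne_zero h1
    · exact h
  subst hq0
  exact CharP.charP_to_charZero _

/-- A complete Noetherian local domain of characteristic zero with residue field a given perfect field of
characteristic `p`. -/
theorem exists_base (p : ℕ) [Fact p.Prime] (k : Type u) [Field k] [CharP k p] [PerfectRing k p] :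
    ∃ (A : Type u) (_ : CommRing A) (_ : IsDomain A) (_ : IsLocalRing A) (_ : IsNoetherianRing A)
      (_ : IsAdicComplete (IsLocalRing.maximalIdeal A) A) (_ : CharZero A),
      Nonempty (IsLocalRing.ResidueField A ≃+* k) := by
  have hp : IsLocalRing.maximalIdeal (WittVector p k) = Ideal.span {(p : WittVector p k)} := by
    exact (IsDiscreteValuationRing.irreducible_iff_uniformizer _).mp (WittVector.irreducible p)
  have hc : IsAdicComplete (IsLocalRing.maximalIdeal (WittVector p k)) (WittVector p k) := by
    rw [hp]; infer_instance
  refine ⟨WittVector p k, inferInstance, inferInstance, inferInstance, inferInstance, hc,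
    charZero_witt p k, ?_⟩
  refine ⟨(Ideal.quotEquivOfEq hp).trans ?_⟩
  exact WittVector.quotientPEquiv

end Groth.Agent.Pi1.H386.WittBase
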